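import Mathlib

/-!
Ree's inequality for generators of a transitive permutation group, proved through Scott's
linear argument on the permutation module over the rationals.
-/

set_option autoImplicit false
set_option linter.unusedSectionVars false

namespace CfsgLib.M23Gen

open Module

variable {α : Type*} [Fintype α]

/-- `x` has at least `k` cycles, witnessed by an invariant function with at least `k` values. -/
def HasCycles (x : Equiv.Perm α) (k : ℕ) : Prop :=
  ∃ f : α → ℕ, (∀ a, f (x a) = f a) ∧ k ≤ (Finset.univ.image f).card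

theorem HasCycles.mono {x : Equiv.Perm α} {k l : ℕ} (h : HasCycles x k) (hl : l ≤ k) :
    HasCycles x l := by
  obtain ⟨f, hf, hk⟩ := h
  exact ⟨f, hf, hl.trans hk⟩

theorem HasCycles.conj {x : Equiv.Perm α} {k : ℕ} (h : HasCycles x k) (g : Equiv.Perm α) :
    HasCycles (g * x * g⁻¹) k := by
  obtain ⟨f, hf, hk⟩ := h
  refine ⟨fun a => f (g⁻¹ a), fun a => ?_, ?_⟩
  · simp [Equiv.Perm.mul_apply, hf]
  · have : (Finset.univ.image fun a => f (g⁻¹ a)) = Finset.univ.image f := by
      ext v
      simp only [Finset.mem_image, Finset.mem_univ, true_and]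
      exact ⟨fun ⟨a, ha⟩ => ⟨_, ha⟩, fun ⟨a, ha⟩ => ⟨g a, by simpa using ha⟩⟩
    rwa [this]

/-- The permutation action on functions. -/
noncomputable def permLin (x : Equiv.Perm α) : (α → ℚ) →ₗ[ℚ] (α → ℚ) := LinearMap.funLeft ℚ ℚ x

/-- The displacement of a permutation on functions. -/
noncomputable def disp (x : Equiv.Perm α) : (α → ℚ) →ₗ[ℚ] (α → ℚ) := permLin x - LinearMap.id

theorem permLin_mul (x y : Equiv.Perm α) (v : α → ℚ) :
    permLin (x * y) v = permLin y (permLin x v) := rfl

theorem permLin_one (v : α → ℚ) : permLin (1 : Equiv.Perm α) v = v := rfl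

theorem finrank_disp_le {x : Equiv.Perm α} {k : ℕ} (h : HasCycles x k) :
    finrank ℚ (LinearMap.range (disp x)) + k ≤ Fintype.card α := by
  classical
  obtain ⟨f, hf, hk⟩ := h
  let S := Finset.univ.image f
  let c : α → S := fun a => ⟨f a, Finset.mem_image_of_mem f (Finset.mem_univ a)⟩
  have hc : Function.Surjective c := by
    rintro ⟨v, hv⟩
    obtain ⟨a, -, ha⟩ := Finset.mem_image.mp hv
    exact ⟨a, Subtype.ext ha⟩
  let ι := LinearMap.funLeft ℚ ℚ c
  have hinj : Function.Injective ι := LinearMap.funLeft_injective_of_surjective _ _ _ hc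
  have hle : LinearMap.range ι ≤ LinearMap.ker (disp x) := by
    rintro _ ⟨w, rfl⟩
    ext a
    have : c (x a) = c a := Subtype.ext (hf a)
    simp [disp, permLin, ι, this]
  have h1 := (disp x).finrank_range_add_finrank_ker
  have h2 := LinearMap.finrank_range_of_inj hinj
  have h3 := Submodule.finrank_mono hle
  rw [Module.finrank_fintype_fun_eq_card] at h1 h2
  rw [Fintype.card_coe] at h2
  have : k ≤ S.card := hk
  omega

/-- Ree's inequality: if `x y z = 1` and `x`, `y` generate a transitive group on `n` points, then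
the numbers of cycles sum to at most `n + 2`. -/
theorem ree_inequality [Nonempty α] {x y z : Equiv.Perm α} {i j k : ℕ} (hxyz : x * y * z = 1)
    (htr : ∀ a b : α, ∃ g ∈ Subgroup.closure ({x, y} : Set (Equiv.Perm α)), g a = b)
    (hx : HasCycles x i) (hy : HasCycles y j) (hz : HasCycles z k) :
    i + j + k ≤ Fintype.card α + 2 := by
  classical
  let Ux := LinearMap.range (disp x)
  let Uy := LinearMap.range (disp y)
  let Uz := LinearMap.range (disp z)
  let β : (α → ℚ) →ₗ[ℚ] Uz × Uy × Ux :=
    (disp z).rangeRestrict.prod ((disp y).rangeRestrict.prod (disp x).rangeRestrict)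
  let A : Uz × Uy × Ux →ₗ[ℚ] (α → ℚ) :=
    Uz.subtype.coprod (((permLin z).comp Uy.subtype).coprod
      (((permLin z).comp (permLin y)).comp Ux.subtype))
  let W := LinearMap.range A
  have hcomp : LinearMap.range β ≤ LinearMap.ker A := by
    rintro _ ⟨v, rfl⟩
    have e : permLin z (permLin y (permLin x v)) = v := by
      rw [← permLin_mul, ← permLin_mul, ← mul_assoc, hxyz, permLin_one]
    show disp z v + (permLin z (disp y v) + permLin z (permLin y (disp x v))) = 0
    simp only [disp, LinearMap.sub_apply, LinearMap.id_apply, map_sub, e]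
    abel
  have hWz : ∀ v, permLin z v - v ∈ W := fun v =>
    ⟨(⟨disp z v, LinearMap.mem_range_self _ v⟩, 0, 0), by simp [A, disp]⟩
  have hWy' : ∀ v, permLin z (permLin y v - v) ∈ W := fun v =>
    ⟨(0, ⟨disp y v, LinearMap.mem_range_self _ v⟩, 0), by simp [A, disp]⟩
  have hWx' : ∀ v, permLin z (permLin y (permLin x v - v)) ∈ W := fun v =>
    ⟨(0, 0, ⟨disp x v, LinearMap.mem_range_self _ v⟩), by simp [A, disp]⟩
  have hWy : ∀ v, permLin y v - v ∈ W := fun v => by
    have := W.sub_mem (hWy' v) (hWz (permLin y v - v))
    simpa using this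
  have hWx : ∀ v, permLin x v - v ∈ W := fun v => by
    have h1 := W.sub_mem (hWx' v) (hWz (permLin y (permLin x v - v)))
    rw [sub_sub_cancel] at h1
    have h2 := W.sub_mem h1 (hWy (permLin x v - v))
    simpa using h2
  let S : Subgroup (Equiv.Perm α) :=
    { carrier := {g | ∀ v, permLin g v - v ∈ W}
      one_mem' := fun v => by simp [permLin_one]
      mul_mem' := fun {g h} hg hh v => by
        have := W.add_mem (hh (permLin g v)) (hg v)
        rw [sub_add_sub_cancel] at this
        exact this
      inv_mem' := fun {g} hg v => by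
        have := W.neg_mem (hg (permLin g⁻¹ v))
        rw [← permLin_mul, inv_mul_cancel, permLin_one, neg_sub] at this
        exact this }
  have hS : Subgroup.closure ({x, y} : Set (Equiv.Perm α)) ≤ S := by
    rw [Subgroup.closure_le]
    rintro g (rfl | rfl)
    · exact hWx
    · exact hWy
  obtain ⟨a₀⟩ := ‹Nonempty α›
  have hsingle : ∀ b, Pi.single b (1 : ℚ) - Pi.single a₀ 1 ∈ W := by
    intro b
    obtain ⟨g, hg, hgb⟩ := htr b a₀
    have e : permLin g (Pi.single a₀ (1 : ℚ)) = Pi.single b 1 := by
      funext c
      show (Pi.single a₀ (1 : ℚ) : α → ℚ) (g c) = (Pi.single b (1 : ℚ) : α → ℚ) c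
      by_cases hc : c = b
      · subst hc; simp [hgb]
      · have : g c ≠ a₀ := fun e' => hc (g.injective (e'.trans hgb.symm))
        simp [hc, this]
    simpa [e] using (hS hg) (Pi.single a₀ 1)
  have htop : W ⊔ Submodule.span ℚ {Pi.single a₀ (1 : ℚ)} = ⊤ := by
    rw [eq_top_iff, ← (Pi.basisFun ℚ α).span_eq, Submodule.span_le]
    rintro _ ⟨b, rfl⟩
    rw [Pi.basisFun_apply, ← sub_add_cancel (Pi.single b (1 : ℚ) : α → ℚ) (Pi.single a₀ 1)]
    exact Submodule.add_mem_sup (hsingle b) (Submodule.mem_span_singleton_self _)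
  have hW : Fintype.card α ≤ finrank ℚ W + 1 := by
    have h1 := Submodule.finrank_add_le_finrank_add_finrank W
      (Submodule.span ℚ {Pi.single a₀ (1 : ℚ)})
    have h2 : finrank ℚ (Submodule.span ℚ {(Pi.single a₀ (1 : ℚ) : α → ℚ)}) = 1 :=
      finrank_span_singleton (by
        intro h
        simpa using congrFun h a₀)
    rw [htop, finrank_top, Module.finrank_fintype_fun_eq_card] at h1
    omega
  have hker : finrank ℚ (LinearMap.ker β) ≤ 1 := by
    let ev : LinearMap.ker β →ₗ[ℚ] ℚ := (LinearMap.proj a₀).comp (Submodule.subtype _)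
    have : Function.Injective ev := by
      rw [← LinearMap.ker_eq_bot, LinearMap.ker_eq_bot']
      rintro ⟨v, hv⟩ hv0
      have h0 : β v = 0 := LinearMap.mem_ker.mp hv
      have fx : permLin x v = v ∧ permLin y v = v :=
        ⟨sub_eq_zero.mp (congrArg (fun p : Uz × Uy × Ux => (p.2.2 : α → ℚ)) h0),
          sub_eq_zero.mp (congrArg (fun p : Uz × Uy × Ux => (p.2.1 : α → ℚ)) h0)⟩
      let F : Subgroup (Equiv.Perm α) :=
        { carrier := {g | permLin g v = v}
          one_mem' := permLin_one v
          mul_mem' := fun {g h} hg hh => by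
            show permLin (g * h) v = v
            rw [permLin_mul, hg, hh]
          inv_mem' := fun {g} hg => by
            show permLin g⁻¹ v = v
            conv_lhs => rw [← hg]
            rw [← permLin_mul, mul_inv_cancel, permLin_one] }
      have hF : Subgroup.closure ({x, y} : Set (Equiv.Perm α)) ≤ F := by
        rw [Subgroup.closure_le]
        rintro g (rfl | rfl)
        · exact fx.1
        · exact fx.2
      apply Subtype.ext
      funext b
      obtain ⟨g, hg, hgb⟩ := htr a₀ b
      have := congrFun (hF hg : permLin g v = v) a₀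
      change v (g a₀) = v a₀ at this
      rw [hgb] at this
      change v a₀ = 0 at hv0
      simpa [hv0] using this
    simpa using LinearMap.finrank_le_finrank_of_injective this
  have hA := A.finrank_range_add_finrank_ker
  have hB := β.finrank_range_add_finrank_ker
  have hAB := Submodule.finrank_mono hcomp
  rw [Module.finrank_prod, Module.finrank_prod] at hA
  rw [Module.finrank_fintype_fun_eq_card] at hB
  have e1 := finrank_disp_le hx
  have e2 := finrank_disp_le hy
  have e3 := finrank_disp_le hz
  have : finrank ℚ W = finrank ℚ (LinearMap.range A) := rfl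
  have : finrank ℚ Ux = finrank ℚ (LinearMap.range (disp x)) := rfl
  have : finrank ℚ Uy = finrank ℚ (LinearMap.range (disp y)) := rfl
  have : finrank ℚ Uz = finrank ℚ (LinearMap.range (disp z)) := rfl
  omega

end CfsgLib.M23Gen
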