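import Cfsg.Agent.Eq.Def_Sporadic_a
import Cfsg.Agent.Eq.Def_Spor_Mathieu
import Cfsg.Agent.M23Gen.Ree

/-!
Lists of images encoding permutations of the 24 points, for kernel computation.
-/

set_option autoImplicit false

namespace CfsgLib.M23Gen

open Cfsg

/-- Position of a point: residues at their value, the extra point at 23. -/
def idx : GolayPt → ℕ
  | none => 23
  | some x => x.val

theorem idx_lt : ∀ p : GolayPt, idx p < 24 := by decide +kernel
theorem idx_inj : Function.Injective idx := by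
  have : ∀ p q : GolayPt, idx p = idx q → p = q := by decide +kernel
  exact this
theorem idx_surj : ∀ i < 24, ∃ p : GolayPt, idx p = i := by decide +kernel

/-- `L` is the list of images of `g`. -/
def Enc (g : Equiv.Perm GolayPt) (L : List ℕ) : Prop :=
  L.length = 24 ∧ ∀ p, idx (g p) = L.getD (idx p) 0

instance encDecidable (g : Equiv.Perm GolayPt) (L : List ℕ) : Decidable (Enc g L) :=
  inferInstanceAs (Decidable (_ ∧ _))

/-- Composition of image lists. -/
def compL (a b : List ℕ) : List ℕ := b.map fun i => a.getD i 0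

def idL : List ℕ := List.range 24

def powL (a : List ℕ) : ℕ → List ℕ
  | 0 => idL
  | n + 1 => compL (powL a n) a

theorem enc_one : Enc 1 idL := ⟨rfl, fun p => by simp [idL, idx_lt p]⟩

theorem Enc.mul {g h : Equiv.Perm GolayPt} {a b : List ℕ} (hg : Enc g a) (hh : Enc h b) :
    Enc (g * h) (compL a b) := by
  refine ⟨by simp [compL, hh.1], fun p => ?_⟩
  have hp : idx p < b.length := hh.1 ▸ idx_lt p
  rw [Equiv.Perm.mul_apply, hg.2, hh.2]
  simp [compL, hp]

theorem Enc.pow {g : Equiv.Perm GolayPt} {a : List ℕ} (hg : Enc g a) :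
    ∀ n, Enc (g ^ n) (powL a n)
  | 0 => by rw [pow_zero]; exact enc_one
  | n + 1 => by rw [pow_succ]; exact (hg.pow n).mul hg

theorem Enc.eq_of {g h : Equiv.Perm GolayPt} {a : List ℕ} (hg : Enc g a) (hh : Enc h a) : g = h :=
  Equiv.ext fun p => idx_inj ((hg.2 p).trans (hh.2 p).symm)

theorem Enc.list_eq {g : Equiv.Perm GolayPt} {a b : List ℕ} (hg : Enc g a) (hh : Enc g b) :
    a = b := by
  apply List.ext_getElem (hg.1.trans hh.1.symm)
  intro i h1 h2
  obtain ⟨p, rfl⟩ := idx_surj i (hg.1 ▸ h1)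
  have := (hg.2 p).symm.trans (hh.2 p)
  rwa [List.getD_eq_getElem _ _ h1, List.getD_eq_getElem _ _ h2] at this

theorem Enc.eq_iff {g h : Equiv.Perm GolayPt} {a b : List ℕ} (hg : Enc g a) (hh : Enc h b) :
    g = h ↔ a = b :=
  ⟨fun e => (e ▸ hg).list_eq hh, fun e => hg.eq_of (e ▸ hh)⟩

theorem Enc.eq_one_iff {g : Equiv.Perm GolayPt} {a : List ℕ} (hg : Enc g a) : g = 1 ↔ a = idL :=
  hg.eq_iff enc_one

theorem Enc.inv {g : Equiv.Perm GolayPt} {a L : List ℕ} (hg : Enc g a) (hL : L.length = 24)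
    (h : compL L a = idL) : Enc g⁻¹ L := by
  refine ⟨hL, fun p => ?_⟩
  obtain ⟨q, rfl⟩ := g.surjective p
  rw [hg.2 q]
  have hq : idx q < a.length := hg.1 ▸ idx_lt q
  have := congrArg (fun l : List ℕ => l.getD (idx q) 0) h
  simpa [compL, idL, hq, idx_lt q] using this.symm

/-- Evaluation of a word in a group. -/
def evalG {A : Type*} [Monoid A] (d : ℕ → A) : List ℕ → A
  | [] => 1
  | i :: w => d i * evalG d w

/-- Evaluation of a word on image lists. -/
def evalL (d : ℕ → List ℕ) : List ℕ → List ℕ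
  | [] => idL
  | i :: w => compL (d i) (evalL d w)

theorem enc_eval {d : ℕ → Equiv.Perm GolayPt} {e : ℕ → List ℕ} (h : ∀ i, Enc (d i) (e i)) :
    ∀ w, Enc (evalG d w) (evalL e w)
  | [] => enc_one
  | i :: w => (h i).mul (enc_eval h w)

theorem evalG_mem {A : Type*} [Group A] {S : Subgroup A} {d : ℕ → A} (h : ∀ i, d i ∈ S) :
    ∀ w, evalG d w ∈ S
  | [] => S.one_mem
  | i :: w => S.mul_mem (h i) (evalG_mem h w)

/-- Smallest point of the orbit of `i` under the powers below 24 of a list. -/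
def orbMin (L : List ℕ) : ℕ → ℕ → ℕ
  | 0, i => i
  | n + 1, i => min i (orbMin L n (L.getD i 0))

/-- Check that a list has at least `k` cycles. -/
def cyclesCheck (L : List ℕ) (k : ℕ) : Bool :=
  ((List.range 24).all fun i => orbMin L 23 (L.getD i 0) == orbMin L 23 i) &&
    decide (k ≤ ((List.range 24).map (orbMin L 23)).dedup.length)

theorem card_image_idx_eq (f : ℕ → ℕ) (n : ℕ) (hlt : ∀ p : GolayPt, idx p < n)
    (hs : ∀ i < n, ∃ p : GolayPt, idx p = i) :
    (Finset.univ.image fun p : GolayPt => f (idx p)).card = ((List.range n).map f).dedup.length := by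
  rw [← List.card_toFinset]
  refine congrArg Finset.card ?_
  ext v
  simp only [List.mem_toFinset, List.mem_map, List.mem_range, Finset.mem_image, Finset.mem_univ,
    true_and]
  constructor
  · rintro ⟨p, rfl⟩
    exact ⟨idx p, hlt p, rfl⟩
  · rintro ⟨i, hi, rfl⟩
    obtain ⟨p, rfl⟩ := hs i hi
    exact ⟨p, rfl⟩

theorem card_image_idx (f : ℕ → ℕ) :
    (Finset.univ.image fun p : GolayPt => f (idx p)).card = ((List.range 24).map f).dedup.length :=
  card_image_idx_eq f 24 idx_lt idx_surj

theorem Enc.hasCycles {g : Equiv.Perm GolayPt} {L : List ℕ} (hg : Enc g L) {k : ℕ}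
    (h : cyclesCheck L k = true) : HasCycles g k := by
  simp only [cyclesCheck, Bool.and_eq_true, List.all_eq_true, beq_iff_eq, decide_eq_true_eq,
    List.mem_range] at h
  obtain ⟨h1, h2⟩ := h
  refine ⟨fun p => orbMin L 23 (idx p), fun p => ?_, ?_⟩
  · show orbMin L 23 (idx (g p)) = orbMin L 23 (idx p)
    rw [hg.2 p]
    exact h1 _ (idx_lt p)
  · rw [card_image_idx (orbMin L 23)]
    exact h2

end CfsgLib.M23Gen
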