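import Cfsg.Agent.M23Gen.Data

/-!
Prime order triples generating M23: the witnesses, and the cycle counts forced by the Sylow
subgroups for the exclusions.
-/

set_option autoImplicit false

namespace CfsgLib.M23Gen

open Cfsg

def pairL (X Xi Y Yi : List ℕ) : ℕ → List ℕ
  | 0 => X
  | 1 => Xi
  | 2 => Y
  | _ => Yi

def pairP {A : Type*} [Group A] (x y : A) : ℕ → A
  | 0 => x
  | 1 => x⁻¹
  | 2 => y
  | _ => y⁻¹

/-- The check of a witness. -/
def Wit.check (w : Wit) : Bool :=
  let X := evalL genL w.wx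
  let Y := evalL genL w.wy
  let Xi := powL X (w.p - 1)
  let Yi := powL Y (w.q - 1)
  let Z := compL X Y
  (X != idL) && (powL X w.p == idL) && (compL Xi X == idL) && (Xi.length == 24) &&
  (Y != idL) && (powL Y w.q == idL) && (compL Yi Y == idL) && (Yi.length == 24) &&
  (Z != idL) && (powL Z w.r == idL) &&
  (evalL (pairL X Xi Y Yi) w.wt == shiftL) && (evalL (pairL X Xi Y Yi) w.wc == cubeL)

theorem witnesses_check : witnesses.all Wit.check = true := by decide +kernel

theorem orderOf_of_enc {g : Equiv.Perm GolayPt} {L : List ℕ} (hg : Enc g L) {p : ℕ}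
    (hp : p.Prime) (h1 : L ≠ idL) (hpow : powL L p = idL) : orderOf g = p := by
  have : Fact p.Prime := ⟨hp⟩
  exact orderOf_eq_prime ((hg.pow p).eq_one_iff.mpr hpow) fun e => h1 (hg.eq_one_iff.mp e)

theorem gen_mem {M : Subgroup (Equiv.Perm GolayPt)} (ht : shift ∈ M) (hc : cubeTwist ∈ M) :
    ∀ i, genP i ∈ M
  | 0 => ht
  | 1 => M.inv_mem ht
  | 2 => hc
  | _ + 3 => M.inv_mem hc

theorem exists_of_witness (M : Subgroup (Equiv.Perm GolayPt)) (ht : shift ∈ M) (hc : cubeTwist ∈ M)
    (hgen : M ≤ Subgroup.closure {shift, cubeTwist}) (w : Wit) (hw : w ∈ witnesses)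
    (hp : w.p.Prime) (hq : w.q.Prime) (hr : w.r.Prime) :
    ∃ x y z : M, orderOf x = w.p ∧ orderOf y = w.q ∧ orderOf z = w.r ∧ x * y * z = 1 ∧
      Subgroup.closure {x, y} = ⊤ := by
  have h := List.all_eq_true.mp witnesses_check w hw
  simp only [Wit.check, Bool.and_eq_true, beq_iff_eq, bne_iff_ne] at h
  obtain ⟨⟨⟨⟨⟨⟨⟨⟨⟨⟨⟨a1, a2⟩, a3⟩, a4⟩, b1⟩, b2⟩, b3⟩, b4⟩, c1⟩, c2⟩, dt⟩, dc⟩ := h
  have ex := enc_eval enc_gen w.wx
  have ey := enc_eval enc_gen w.wy
  set x := evalG genP w.wx
  set y := evalG genP w.wy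
  have hx : x ∈ M := evalG_mem (gen_mem ht hc) _
  have hy : y ∈ M := evalG_mem (gen_mem ht hc) _
  refine ⟨⟨x, hx⟩, ⟨y, hy⟩, (⟨x, hx⟩ * ⟨y, hy⟩)⁻¹, ?_, ?_, ?_, mul_inv_cancel _, ?_⟩
  · rw [Subgroup.orderOf_mk]
    exact orderOf_of_enc ex hp a1 a2
  · rw [Subgroup.orderOf_mk]
    exact orderOf_of_enc ey hq b1 b2
  · rw [orderOf_inv, ← Subgroup.orderOf_coe]
    exact orderOf_of_enc (ex.mul ey) hr c1 c2
  · have e : ∀ i, Enc (pairP x y i) (pairL (evalL genL w.wx) (powL (evalL genL w.wx) (w.p - 1))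
        (evalL genL w.wy) (powL (evalL genL w.wy) (w.q - 1)) i)
      | 0 => ex
      | 1 => ex.inv a4 a3
      | 2 => ey
      | _ + 3 => ey.inv b4 b3
    let H := Subgroup.closure ({x, y} : Set (Equiv.Perm GolayPt))
    have hH : ∀ i, pairP x y i ∈ H
      | 0 => Subgroup.subset_closure (Set.mem_insert x {y})
      | 1 => H.inv_mem (Subgroup.subset_closure (Set.mem_insert x {y}))
      | 2 => Subgroup.subset_closure (Set.mem_insert_of_mem x rfl)
      | _ + 3 => H.inv_mem (Subgroup.subset_closure (Set.mem_insert_of_mem x rfl))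
    have h1 : shift ∈ H := by
      have hh := enc_eval e w.wt
      rw [dt] at hh
      rw [← hh.eq_of enc_shift]
      exact evalG_mem hH _
    have h2 : cubeTwist ∈ H := by
      have hh := enc_eval e w.wc
      rw [dc] at hh
      rw [← hh.eq_of enc_cube]
      exact evalG_mem hH _
    have hMH : M ≤ H := hgen.trans ((Subgroup.closure_le H).mpr (by
      rintro g (rfl | rfl)
      · exact h1
      · exact h2))
    apply Subgroup.map_injective M.subtype_injective
    rw [MonoidHom.map_closure, Set.image_pair, ← MonoidHom.range_eq_map, Subgroup.range_subtype]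
    refine le_antisymm ((Subgroup.closure_le M).mpr ?_) hMH
    rintro g (rfl | rfl)
    · exact hx
    · exact hy

/-- Check of Sylow data: `words` lists the elements of a group generated by `gens` of order `n`,
each non-identity element having at least `k` cycles. -/
def sylCheck (gens words : List (List ℕ)) (p n k : ℕ) : Bool :=
  let G := gens.map (evalL genL)
  let E := words.map (evalL fun i => G.getD i idL)
  (words.all fun w => w.all fun i => decide (i < gens.length)) &&
  (E.length == n) && decide E.Nodup && E.contains idL &&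
  (G.all fun g => E.all fun e => E.contains (compL g e)) &&
  (E.all fun e => !(powL e p == idL) || (e == idL) || cyclesCheck e k)

theorem card_bound_and_cycles {gens words : List (List ℕ)} {p n k : ℕ}
    (h : sylCheck gens words p n k = true) (M : Subgroup (Equiv.Perm GolayPt))
    (ht : shift ∈ M) (hc : cubeTwist ∈ M) :
    ∃ H : Subgroup M, Nat.card H = n ∧
      ∀ g ∈ H, orderOf g = p → g ≠ 1 → HasCycles (g : Equiv.Perm GolayPt) k := by
  simp only [sylCheck, Bool.and_eq_true, beq_iff_eq, decide_eq_true_eq, List.all_eq_true,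
    List.contains_iff_mem, Bool.or_eq_true, Bool.not_eq_true', beq_eq_false_iff_ne] at h
  obtain ⟨⟨⟨⟨⟨hidx, hlen⟩, hnd⟩, hid⟩, hclosed⟩, hcyc⟩ := h
  let G := gens.map (evalL genL)
  let E := words.map (evalL fun i => G.getD i idL)
  let P : ℕ → Equiv.Perm GolayPt := fun i =>
    if h : i < gens.length then evalG genP gens[i] else 1
  have hP : ∀ i, Enc (P i) (G.getD i idL) := by
    intro i
    by_cases hi : i < gens.length
    · simpa [P, G, hi] using enc_eval enc_gen gens[i]
    · simpa [P, G, hi] using enc_one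
  have hPM : ∀ i, P i ∈ M := by
    intro i
    by_cases hi : i < gens.length
    · simpa [P, hi] using evalG_mem (gen_mem ht hc) gens[i]
    · simp [P, hi, M.one_mem]
  let S : Set (Equiv.Perm GolayPt) := {g | ∃ L ∈ E, Enc g L}
  let K := Subgroup.closure {g | ∃ i < gens.length, P i = g}
  have hKM : K ≤ M := (Subgroup.closure_le M).mpr (by rintro g ⟨i, -, rfl⟩; exact hPM i)
  have hSfin : S.Finite := Set.toFinite S
  have hstep : ∀ i < gens.length, ∀ g ∈ S, P i * g ∈ S := by
    rintro i hi g ⟨L, hL, hgL⟩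
    refine ⟨_, ?_, (hP i).mul hgL⟩
    have hmem : G.getD i idL ∈ G := by
      simp [G, hi]
      exact ⟨gens[i], List.getElem_mem hi, rfl⟩
    exact hclosed _ hmem L hL
  have hSK : ∀ g, g ∈ K → ∀ s ∈ S, g * s ∈ S := by
    intro g hg
    have : g ∈ Subgroup.closure {g | ∃ i < gens.length, P i = g} := hg
    let T : Subgroup (Equiv.Perm GolayPt) :=
      { carrier := {g | (fun s => g * s) '' S = S}
        one_mem' := by simp
        mul_mem' := fun {a b} ha hb => by
          show (fun s => a * b * s) '' S = S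
          conv_rhs => rw [← ha, ← hb, Set.image_image]
          simp [mul_assoc]
        inv_mem' := fun {a} ha => by
          show (fun s => a⁻¹ * s) '' S = S
          conv_lhs => rw [← ha, Set.image_image]
          simp }
    have hT : K ≤ T := (Subgroup.closure_le T).mpr (by
      rintro _ ⟨i, hi, rfl⟩
      show (fun s => P i * s) '' S = S
      have hsub : (fun s => P i * s) '' S ⊆ S := by
        rintro _ ⟨s, hs, rfl⟩
        exact hstep i hi s hs
      exact Set.eq_of_subset_of_ncard_le hsub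
        (le_of_eq (Set.ncard_image_of_injective S (mul_right_injective _)).symm) hSfin)
    intro s hs
    have e : (fun s => g * s) '' S = S := hT hg
    rw [← e]
    exact ⟨s, hs, rfl⟩
  have h1 : (1 : Equiv.Perm GolayPt) ∈ S := ⟨idL, hid, enc_one⟩
  have hKS : (K : Set (Equiv.Perm GolayPt)) ⊆ S := fun g hg => by
    simpa using hSK g hg 1 h1
  have hSK' : S ⊆ K := by
    rintro g ⟨L, hL, hgL⟩
    obtain ⟨w, hw, rfl⟩ := List.mem_map.mp hL
    rw [hgL.eq_of (enc_eval hP w)]
    clear hgL hL
    have hw' := hidx w hw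
    clear hw
    induction w with
    | nil => exact K.one_mem
    | cons i w ih =>
      exact K.mul_mem (Subgroup.subset_closure ⟨i, hw' i List.mem_cons_self, rfl⟩)
        (ih fun j hj => hw' j (List.mem_cons_of_mem i hj))
  have hcard : Nat.card K = n := by
    have eS : (K : Set (Equiv.Perm GolayPt)) = S := hKS.antisymm hSK'
    have hex : ∀ L ∈ E, ∃ g, g ∈ S ∧ Enc g L := by
      intro L hL
      obtain ⟨w, hw, rfl⟩ := List.mem_map.mp hL
      exact ⟨_, ⟨_, List.mem_map.mpr ⟨w, hw, rfl⟩, enc_eval hP w⟩, enc_eval hP w⟩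
    choose f hf1 hf2 using hex
    let F : {L // L ∈ E.toFinset} → K := fun L =>
      ⟨f L.1 (List.mem_toFinset.mp L.2), by
        show _ ∈ (K : Set (Equiv.Perm GolayPt))
        rw [eS]
        exact hf1 _ _⟩
    have hF : Function.Bijective F := by
      constructor
      · intro a b e
        have e' : f a.1 (List.mem_toFinset.mp a.2) = f b.1 (List.mem_toFinset.mp b.2) :=
          congrArg Subtype.val e
        exact Subtype.ext ((e' ▸ hf2 a.1 _).list_eq (hf2 b.1 _))
      · rintro ⟨g, hg⟩
        obtain ⟨L, hL, hgL⟩ : g ∈ S := eS ▸ hg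
        exact ⟨⟨L, List.mem_toFinset.mpr hL⟩, Subtype.ext ((hf2 L _).eq_of hgL)⟩
    rw [← Nat.card_congr (Equiv.ofBijective F hF), Nat.card_eq_finsetCard,
      List.toFinset_card_of_nodup hnd, hlen]
  refine ⟨K.subgroupOf M, ?_, ?_⟩
  · rw [Nat.card_congr (Subgroup.subgroupOfEquivOfLe hKM).toEquiv, hcard]
  · intro g hg ho hne
    obtain ⟨L, hL, hgL⟩ : (g : Equiv.Perm GolayPt) ∈ S := hKS hg
    have hp : powL L p = idL :=
      (hgL.pow p).eq_one_iff.mp (by rw [← ho, ← Subgroup.coe_pow, pow_orderOf_eq_one, Subgroup.coe_one])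
    rcases hcyc L hL with (h' | h') | h'
    · exact absurd hp h'
    · exact absurd (Subtype.ext (hgL.eq_one_iff.mpr h')) hne
    · exact hgL.hasCycles h'

theorem syl_checks :
    sylCheck sylGens2 sylWords2 2 128 16 = true ∧ sylCheck sylGens3 sylWords3 3 9 12 = true ∧
    sylCheck sylGens5 sylWords5 5 5 8 = true ∧ sylCheck sylGens7 sylWords7 7 7 6 = true ∧
    sylCheck sylGens11 sylWords11 11 11 4 = true ∧ sylCheck sylGens23 sylWords23 23 23 2 = true := by
  decide +kernel

theorem cycles_of_check {gens words : List (List ℕ)} {p a n k : ℕ} (hp : p.Prime)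
    (h : sylCheck gens words p n k = true) (M : Subgroup (Equiv.Perm GolayPt))
    (ht : shift ∈ M) (hc : cubeTwist ∈ M) (hn : n = p ^ a)
    (hcard : ∃ m, Nat.card M = p ^ a * m ∧ ¬ p ∣ m) (g : M) (hg : orderOf g = p) :
    HasCycles (g : Equiv.Perm GolayPt) k := by
  have : Fact p.Prime := ⟨hp⟩
  obtain ⟨m, hm, hpm⟩ := hcard
  obtain ⟨H, hH, hcyc⟩ := card_bound_and_cycles h M ht hc
  have hf : (Nat.card M).factorization p = a := by
    rw [hm, Nat.factorization_mul (pow_ne_zero _ hp.ne_zero) (fun e => hpm (by rw [e]; exact dvd_zero p))]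
    simp [Nat.factorization_eq_zero_of_not_dvd hpm, hp.factorization_self]
  let P : Sylow p M := Sylow.ofCard H (by rw [hH, hf, hn])
  obtain ⟨Q, hQ⟩ := (IsPGroup.of_card (n := 1) (G := Subgroup.zpowers g)
    (by rw [Nat.card_zpowers, hg, pow_one])).exists_le_sylow
  obtain ⟨c, hcQ⟩ := MulAction.exists_smul_eq M Q P
  have hmem : c * g * c⁻¹ ∈ H := by
    have : MulAut.conj c • g ∈ ((c • Q : Sylow p M) : Subgroup M) := by
      rw [Sylow.coe_subgroup_smul]
      exact Subgroup.smul_mem_pointwise_smul g _ _ (hQ (Subgroup.mem_zpowers g))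
    rw [hcQ] at this
    exact this
  have ho : orderOf (c * g * c⁻¹) = p := by
    have : orderOf ((MulAut.conj c).toMonoidHom g) = p := by
      rw [orderOf_injective _ (MulAut.conj c).injective, hg]
    exact this
  have hne : c * g * c⁻¹ ≠ 1 := fun e => hp.ne_one (by rw [← ho, e, orderOf_one])
  have := (hcyc _ hmem ho hne).conj ((c : Equiv.Perm GolayPt)⁻¹)
  simpa [mul_assoc] using this

/-- Restriction to the points other than a fixed one. -/
theorem hasCycles_restrict {α : Type*} [Fintype α] [DecidableEq α] (a₀ : α) {g : Equiv.Perm α}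
    {k : ℕ} (h : HasCycles g (k + 1)) (hiff : ∀ p, g p ≠ a₀ ↔ p ≠ a₀) :
    HasCycles (g.subtypePerm hiff : Equiv.Perm {p : α // p ≠ a₀}) k := by
  obtain ⟨f, hf, hk⟩ := h
  refine ⟨fun p => f p.1, fun p => hf p.1, ?_⟩
  have hsub : (Finset.univ.image f) ⊆
      insert (f a₀) (Finset.univ.image fun p : {p : α // p ≠ a₀} => f p.1) := by
    intro v hv
    obtain ⟨p, -, rfl⟩ := Finset.mem_image.mp hv
    by_cases hp : p = a₀
    · rw [hp]; exact Finset.mem_insert_self _ _
    · exact Finset.mem_insert_of_mem (Finset.mem_image.mpr ⟨⟨p, hp⟩, Finset.mem_univ _, rfl⟩)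
  have := (Finset.card_le_card hsub).trans (Finset.card_insert_le _ _)
  omega

theorem shift_pow_apply (n : ℕ) (a : ZMod 23) : (shift ^ n) (some a) = some (a + n) := by
  induction n generalizing a with
  | zero => simp
  | succ n ih =>
    rw [pow_succ, Equiv.Perm.mul_apply]
    show (shift ^ n) (some (a + 1)) = _
    rw [ih]
    push_cast
    congr 1
    ring

theorem not_generated (M : Subgroup (Equiv.Perm GolayPt)) (ht : shift ∈ M)
    (hfix : ∀ g ∈ M, g none = none) {i j k : ℕ} (hijk : 25 < i + j + k)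
    (x y z : M) (hx : HasCycles (x : Equiv.Perm GolayPt) (i + 1))
    (hy : HasCycles (y : Equiv.Perm GolayPt) (j + 1)) (hz : HasCycles (z : Equiv.Perm GolayPt) (k + 1))
    (hxyz : x * y * z = 1) : Subgroup.closure {x, y} ≠ ⊤ := by
  intro htop
  let A := {p : GolayPt // p ≠ none}
  have hiff : ∀ (g : M) (p : GolayPt), (g : Equiv.Perm GolayPt) p ≠ none ↔ p ≠ none := by
    intro g p
    exact not_congr ⟨fun e => (g : Equiv.Perm GolayPt).injective (e.trans (hfix g g.2).symm),
      fun e => e ▸ hfix g g.2⟩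
  let φ : M →* Equiv.Perm A :=
    { toFun := fun g => (g : Equiv.Perm GolayPt).subtypePerm (hiff g)
      map_one' := by ext p; rfl
      map_mul' := fun g h => by ext p; rfl }
  have : Nonempty A := ⟨⟨some 0, by simp⟩⟩
  have key := ree_inequality (x := φ x) (y := φ y) (z := φ z) (i := i) (j := j) (k := k)
    (by rw [← map_mul, ← map_mul, hxyz, map_one]) ?_ (hasCycles_restrict none hx (hiff x))
    (hasCycles_restrict none hy (hiff y)) (hasCycles_restrict none hz (hiff z))
  · have hA : Fintype.card A = 23 := by decide +kernel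
    omega
  · rintro ⟨a, ha⟩ ⟨b, hb⟩
    obtain ⟨a, rfl⟩ := Option.ne_none_iff_exists'.mp ha
    obtain ⟨b, rfl⟩ := Option.ne_none_iff_exists'.mp hb
    refine ⟨φ ((⟨shift, ht⟩ : M) ^ (b - a).val), ?_, ?_⟩
    · have : Subgroup.closure ({φ x, φ y} : Set (Equiv.Perm A)) = φ.range := by
        rw [← Set.image_pair, ← MonoidHom.map_closure, htop, MonoidHom.range_eq_map]
      rw [this]
      exact ⟨_, rfl⟩
    · apply Subtype.ext
      show (((⟨shift, ht⟩ : M) ^ (b - a).val : M) : Equiv.Perm GolayPt) (some a) = some b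
      rw [Subgroup.coe_pow, shift_pow_apply, ZMod.natCast_zmod_val, add_sub_cancel]

end CfsgLib.M23Gen
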