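import Cfsg.Agent.M23Gen.Generation
import Cfsg.Agent.Golay.Perm

/-!
The (p, q, r)-generation criterion for M23, given its order and its two generators.
-/

set_option autoImplicit false

namespace CfsgLib.M23Gen

open Cfsg

theorem shift_mem_M23 : shift ∈ Spor.M23 := ⟨CfsgLib.Golay.shift_mem, rfl⟩

theorem cube_mem_M23 : cubeTwist ∈ Spor.M23 :=
  ⟨CfsgLib.Golay.mem_M24_iff.mpr (by decide +kernel), rfl⟩

theorem fix_none : ∀ g ∈ Spor.M23, g none = (none : GolayPt) := fun _ hg => hg.2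

theorem prime_cases {p : ℕ} (hp : p.Prime) (h : p ∣ 10200960) :
    p = 2 ∨ p = 3 ∨ p = 5 ∨ p = 7 ∨ p = 11 ∨ p = 23 := by
  have e : (10200960 : ℕ) = 2 ^ 7 * (3 ^ 2 * (5 * (7 * (11 * 23)))) := by norm_num
  rw [e] at h
  have key : ∀ {a : ℕ}, a.Prime → p ∣ a → p = a := fun {a} ha hd => (Nat.prime_dvd_prime_iff_eq hp ha).mp hd
  rcases hp.dvd_mul.mp h with h | h
  · exact Or.inl (key (by norm_num) (hp.dvd_of_dvd_pow h))
  rcases hp.dvd_mul.mp h with h | h
  · exact Or.inr (Or.inl (key (by norm_num) (hp.dvd_of_dvd_pow h)))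
  rcases hp.dvd_mul.mp h with h | h
  · exact Or.inr (Or.inr (Or.inl (key (by norm_num) h)))
  rcases hp.dvd_mul.mp h with h | h
  · exact Or.inr (Or.inr (Or.inr (Or.inl (key (by norm_num) h))))
  rcases hp.dvd_mul.mp h with h | h
  · exact Or.inr (Or.inr (Or.inr (Or.inr (Or.inl (key (by norm_num) h)))))
  · exact Or.inr (Or.inr (Or.inr (Or.inr (Or.inr (key (by norm_num) h)))))

/-- The excluded triples. -/
def excluded (p q r : ℕ) : Bool :=
  (p == 2 && q == 3) || (p == 2 && q == 5 && r == 5) || (p == 2 && q == 5 && r == 7) ||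
    (p == 3 && q == 3 && decide (r ≤ 7))

/-- A lower bound on the cycles on 24 points of an element of prime order in M23, minus one. -/
def cyc : ℕ → ℕ
  | 2 => 15
  | 3 => 11
  | 5 => 7
  | 7 => 5
  | 11 => 3
  | 23 => 1
  | _ => 0

theorem excluded_sum : ∀ p ∈ [2, 3, 5, 7, 11, 23], ∀ q ∈ [2, 3, 5, 7, 11, 23],
    ∀ r ∈ [2, 3, 5, 7, 11, 23], q ≤ r → excluded p q r = true → 25 < cyc p + cyc q + cyc r := by
  decide +kernel

theorem witness_exists : ∀ p ∈ [2, 3, 5, 7, 11, 23], ∀ q ∈ [2, 3, 5, 7, 11, 23],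
    ∀ r ∈ [2, 3, 5, 7, 11, 23], p ≤ q → q ≤ r → excluded p q r = false → ¬ (p = 2 ∧ q = 2) →
      witnesses.any (fun w => w.p == p && w.q == q && w.r == r) = true := by
  decide +kernel

theorem hasCycles_of_order (hcard : Nat.card Spor.M23 = 10200960) {p : ℕ}
    (hp : p ∈ [2, 3, 5, 7, 11, 23]) (g : Spor.M23) (hg : orderOf g = p) :
    HasCycles (g : Equiv.Perm GolayPt) (cyc p + 1) := by
  obtain ⟨c2, c3, c5, c7, c11, c23⟩ := syl_checks
  simp only [List.mem_cons, List.not_mem_nil, or_false] at hp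
  rcases hp with rfl | rfl | rfl | rfl | rfl | rfl
  · exact cycles_of_check (a := 7) Nat.prime_two c2 _ shift_mem_M23 cube_mem_M23 (by norm_num)
      ⟨79695, by rw [hcard]; norm_num⟩ g hg
  · exact cycles_of_check (a := 2) Nat.prime_three c3 _ shift_mem_M23 cube_mem_M23 (by norm_num)
      ⟨1133440, by rw [hcard]; norm_num⟩ g hg
  · exact cycles_of_check (a := 1) (by norm_num) c5 _ shift_mem_M23 cube_mem_M23 (by norm_num)
      ⟨2040192, by rw [hcard]; norm_num⟩ g hg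
  · exact cycles_of_check (a := 1) (by norm_num) c7 _ shift_mem_M23 cube_mem_M23 (by norm_num)
      ⟨1457280, by rw [hcard]; norm_num⟩ g hg
  · exact cycles_of_check (a := 1) (by norm_num) c11 _ shift_mem_M23 cube_mem_M23 (by norm_num)
      ⟨927360, by rw [hcard]; norm_num⟩ g hg
  · exact cycles_of_check (a := 1) (by norm_num) c23 _ shift_mem_M23 cube_mem_M23 (by norm_num)
      ⟨443520, by rw [hcard]; norm_num⟩ g hg

theorem triple_generation (hgen : Spor.M23 ≤ Subgroup.closure {shift, cubeTwist})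
    (hcard : Nat.card Spor.M23 = 10200960) (p q r : ℕ) (hp : p.Prime) (hq : q.Prime)
    (hr : r.Prime) (hpq : p ≤ q) (hqr : q ≤ r) (hp2 : ¬ (p = 2 ∧ q = 2))
    (hdvd : p ∣ 10200960 ∧ q ∣ 10200960 ∧ r ∣ 10200960) :
    (∃ x y z : Cfsg.Spor.M23, orderOf x = p ∧ orderOf y = q ∧ orderOf z = r ∧ x * y * z = 1 ∧
        Subgroup.closure {x, y} = ⊤) ↔
      ¬ ((p = 2 ∧ q = 3) ∨ (p = 2 ∧ q = 5 ∧ r = 5) ∨ (p = 2 ∧ q = 5 ∧ r = 7) ∨ (p = 3 ∧ q = 3 ∧ r ≤ 7)) := by
  have mem : ∀ {n : ℕ}, n.Prime → n ∣ 10200960 → n ∈ [2, 3, 5, 7, 11, 23] := fun hn hd => by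
    simpa using prime_cases hn hd
  have mp := mem hp hdvd.1
  have mq := mem hq hdvd.2.1
  have mr := mem hr hdvd.2.2
  have hex : excluded p q r = true ↔
      ((p = 2 ∧ q = 3) ∨ (p = 2 ∧ q = 5 ∧ r = 5) ∨ (p = 2 ∧ q = 5 ∧ r = 7) ∨ (p = 3 ∧ q = 3 ∧ r ≤ 7)) := by
    simp [excluded, and_assoc, or_assoc]
  rw [← hex]
  constructor
  · rintro ⟨x, y, z, hx, hy, hz, hxyz, htop⟩ hbad
    exact not_generated Spor.M23 shift_mem_M23 fix_none (excluded_sum p mp q mq r mr hqr hbad) x y z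
      (hasCycles_of_order hcard mp x hx) (hasCycles_of_order hcard mq y hy)
      (hasCycles_of_order hcard mr z hz) hxyz htop
  · intro h
    obtain ⟨w, hw, he⟩ := List.any_eq_true.mp
      (witness_exists p mp q mq r mr hpq hqr (by simpa using h) hp2)
    simp only [Bool.and_eq_true, beq_iff_eq] at he
    obtain ⟨⟨rfl, rfl⟩, rfl⟩ := he
    exact exists_of_witness Spor.M23 shift_mem_M23 cube_mem_M23 hgen w hw hp hq hr

end CfsgLib.M23Gen
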