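import Cfsg.Agent.M23Gen.Main
import Cfsg.Agent.Mathieu.M24

/-!
M23 is generated by the shift and the cube twist, and has order 10200960.
-/

set_option autoImplicit false

namespace CfsgLib.M23Gen

open Cfsg

theorem card_M23_point : Nat.card Spor.M23 = 10200960 := by
  have h1 := CfsgLib.Mathieu.card_eq_orbit_mul_fixPt M24 (none : GolayPt)
  have h2 : {q : GolayPt | ∃ g ∈ M24, g none = q} = Set.univ :=
    Set.eq_univ_of_forall fun q => CfsgLib.Mathieu.exists_map_one none q
  rw [h2, Set.ncard_univ, CfsgLib.Mathieu.card_M24, Nat.card_eq_fintype_card (α := GolayPt),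
    show Fintype.card GolayPt = 24 by decide +kernel] at h1
  have e : Nat.card Spor.M23 = Nat.card (CfsgLib.Mathieu.fixPt M24 (none : GolayPt)) := rfl
  omega

theorem p2i_eq_idx' : ∀ p : GolayPt, CfsgLib.Mathieu.p2i p = idx p := by decide +kernel

theorem toTab_of_enc {g : Equiv.Perm GolayPt} {L : List ℕ} (h : Enc g L) :
    CfsgLib.Mathieu.toTab g = L := by
  refine List.ext_getElem (by simp [CfsgLib.Mathieu.toTab, h.1]) fun i hi hi' => ?_
  have hi24 : i < 24 := h.1 ▸ hi'
  simp only [CfsgLib.Mathieu.toTab, List.getElem_map, List.getElem_range]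
  rw [p2i_eq_idx', h.2, ← p2i_eq_idx', CfsgLib.Mathieu.p2i_i2p i hi24,
    List.getD_eq_getElem _ _ hi']

/-- Words in the generators for the seeds, conjugated by the swap of the extra point and 0. -/
def seedWords : List (List ℕ) :=
  [[0,3,3,1,1,1,1,2,0,2,2,0,3,3,1],
   [0,2,0,0,2,0,0,3,3,1,2,1,2,1,1,1]]

theorem gen_mem_closure : ∀ i, genP i ∈ Subgroup.closure ({shift, cubeTwist} : Set (Equiv.Perm GolayPt)) :=
  gen_mem (Subgroup.subset_closure (Set.mem_insert shift {cubeTwist}))
    (Subgroup.subset_closure (Set.mem_insert_of_mem shift rfl))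

/-- The chain certificate of M23 with all tables at its first level (a short orbit search). -/
def chain23' : CfsgLib.Mathieu.Chain :=
  (1, CfsgLib.Mathieu.chain23.flatMap (fun l => l.2.1), 23) :: CfsgLib.Mathieu.chain23.tail

theorem card_closure_ge :
    10200960 ≤ Nat.card (Subgroup.closure ({shift, cubeTwist} : Set (Equiv.Perm GolayPt))) := by
  set K := Subgroup.closure ({shift, cubeTwist} : Set (Equiv.Perm GolayPt))
  let K' := K.map (MulAut.conj projInv).toMonoidHom
  have hcard : Nat.card K' = Nat.card K :=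
    (Nat.card_congr ((MulAut.conj projInv).subgroupMap K).toEquiv).symm
  have hseed : ∀ w ∈ seedWords, CfsgLib.Mathieu.Rep K' (CfsgLib.Mathieu.compTab
      (CfsgLib.Mathieu.compTab CfsgLib.Mathieu.projInvTab (evalL genL w)) CfsgLib.Mathieu.projInvTab) := by
    intro w _
    refine ⟨_, ⟨evalG genP w, evalG_mem gen_mem_closure w, rfl⟩, ?_⟩
    have hinv : (projInv : Equiv.Perm GolayPt)⁻¹ = projInv := by decide +kernel
    show CfsgLib.Mathieu.toTab (projInv * evalG genP w * projInv⁻¹) = _
    rw [hinv, CfsgLib.Mathieu.toTab_mul, CfsgLib.Mathieu.toTab_mul, CfsgLib.Mathieu.toTab_projInv,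
      toTab_of_enc (enc_eval enc_gen w)]
  have hstart : ∀ t ∈ CfsgLib.Mathieu.idTab :: CfsgLib.Mathieu.seeds23, CfsgLib.Mathieu.Rep K' t := by
    intro t ht
    rcases List.mem_cons.mp ht with rfl | ht
    · exact ⟨1, K'.one_mem, CfsgLib.Mathieu.toTab_one⟩
    · rw [show CfsgLib.Mathieu.seeds23 = seedWords.map (fun w => CfsgLib.Mathieu.compTab
          (CfsgLib.Mathieu.compTab CfsgLib.Mathieu.projInvTab (evalL genL w))
          CfsgLib.Mathieu.projInvTab) by decide +kernel] at ht
      obtain ⟨w, hw, rfl⟩ := List.mem_map.mp ht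
      exact hseed w hw
  have hrep := CfsgLib.Mathieu.rep_of_progOK K' CfsgLib.Mathieu.prog23 _ hstart (by decide +kernel)
  have hin : CfsgLib.Mathieu.chainIn ((CfsgLib.Mathieu.idTab :: CfsgLib.Mathieu.seeds23) ++
      CfsgLib.Mathieu.prog23.map (fun e => e.2.2.2)) chain23' = true := by
    decide +kernel
  have h := CfsgLib.Mathieu.chainProd_le_card chain23' K'
    (CfsgLib.Mathieu.rep_chainIn hrep hin) (by decide +kernel)
  rw [show CfsgLib.Mathieu.chainProd chain23' = 10200960 by decide +kernel, hcard] at h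
  exact h

theorem M23_le_closure :
    Spor.M23 ≤ Subgroup.closure ({shift, cubeTwist} : Set (Equiv.Perm GolayPt)) := by
  refine le_of_eq (Subgroup.eq_of_le_of_card_ge ?_ (card_M23_point.le.trans card_closure_ge)).symm
  rw [Subgroup.closure_le]
  rintro g (rfl | rfl)
  · exact shift_mem_M23
  · exact cube_mem_M23

end CfsgLib.M23Gen
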